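import Cfsg.Agent.TwoAut.SubEight
import Cfsg.Agent.SmallPSL.Small
import Cfsg.Agent.S0255

/-!
# The list of non-solvable subgroups of `A₈` with trivial 2-core
-/

set_option autoImplicit false
set_option linter.all false

namespace Cfsg.Agent.TwoAut.SubEight

open Equiv Cfsg MulAction

universe u v

theorem pThree_eq_bot {H : Type u} [Group H] [Finite H]
    (h : Nonempty (H ≃* alternatingGroup (Fin 5)) ∨ Nonempty (H ≃* Perm (Fin 5))) :
    pCore 3 H = ⊥ := by
  haveI : Fact (Nat.Prime 3) := ⟨Nat.prime_three⟩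
  have h5 : 5 ≤ Nat.card (Fin 5) := by rw [Nat.card_fin]
  rcases h with ⟨⟨e⟩⟩ | ⟨⟨e⟩⟩
  · refine pCore_eq_bot_of_equiv e.symm ?_
    haveI : IsSimpleGroup (alternatingGroup (Fin 5)) := alternatingGroup.isSimpleGroup h5
    rcases (inferInstance : (pCore 3 (alternatingGroup (Fin 5))).Normal).eq_bot_or_eq_top with h | h
    · exact h
    · exfalso
      obtain ⟨k, hk⟩ := (PSolv.isPGroup_pCore 3 (alternatingGroup (Fin 5))).exists_card_eq
      rw [h, Subgroup.card_top, card_alt 5 60 (by norm_num) rfl] at hk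
      have : 5 ∣ 3 ^ k := hk ▸ by norm_num
      have := Nat.prime_five.dvd_of_dvd_pow this
      norm_num at this
  · refine pCore_eq_bot_of_equiv e.symm ?_
    obtain ⟨k, hk⟩ := (PSolv.isPGroup_pCore 3 (Perm (Fin 5))).exists_card_eq
    rcases Alt.normal_eq_bot_or_alt_or_top h5 (pCore 3 (Perm (Fin 5))) with h | h | h
    · exact h
    · exfalso
      rw [h, card_alt 5 60 (by norm_num) rfl] at hk
      have : 5 ∣ 3 ^ k := hk ▸ by norm_num
      have := Nat.prime_five.dvd_of_dvd_pow this
      norm_num at this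
    · exfalso
      rw [h, Subgroup.card_top, card_perm_fin] at hk
      have : 5 ∣ 3 ^ k := hk ▸ (by norm_num [Nat.factorial])
      have := Nat.prime_five.dvd_of_dvd_pow this
      norm_num at this

/-- The classification. -/
theorem classify {G : Type u} [Group G] [Finite G] (f : G →* alternatingGroup (Fin 8))
    (hf : Function.Injective f) (hG : ¬ Group.IsSolvable G) (hO : pCore 2 G = ⊥) :
    Nonempty (G ≃* alternatingGroup (Fin 5)) ∨ Nonempty (G ≃* Perm (Fin 5)) ∨
      Nonempty (G ≃* alternatingGroup (Fin 6)) ∨ Nonempty (G ≃* Perm (Fin 6)) ∨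
      Nonempty (G ≃* alternatingGroup (Fin 7)) ∨ Nonempty (G ≃* alternatingGroup (Fin 8)) ∨
      (IsSimpleGroup G ∧ Nat.card G = 168) ∨
      (Nat.card (pCore 3 G) = 3 ∧
        (Nonempty (G ⧸ pCore 3 G ≃* alternatingGroup (Fin 5)) ∨
          Nonempty (G ⧸ pCore 3 G ≃* Perm (Fin 5)))) := by
  classical
  let φ : G →* Perm (Fin 8) := (alternatingGroup (Fin 8)).subtype.comp f
  have hφ : Function.Injective φ := Subtype.val_injective.comp hf
  have he : ∀ g, Perm.sign (φ g) = 1 := fun g => Perm.mem_alternatingGroup.1 (f g).2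
  letI : MulAction G (Fin 8) := MulAction.compHom (Fin 8) φ
  haveI : FaithfulSMul G (Fin 8) := ⟨fun h => hφ (Equiv.ext h)⟩
  obtain ⟨a, ha⟩ : ∃ a : Fin 8, 4 < Nat.card (orbit G a) := by
    by_contra hc
    push Not at hc
    exact hG (solvable_of_small_orbits hc)
  generalize hm : Nat.card (orbit G a) = m at ha
  have hm8 : m ≤ 8 := by
    rw [← hm]
    exact (Nat.card_le_card_of_injective _ Subtype.val_injective).trans_eq (Nat.card_fin 8)
  let ε : orbit G a ≃ Fin m := Fintype.equivFinOfCardEq (by rw [← Nat.card_eq_fintype_card, hm])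
  let π : G →* Perm (Fin m) := ε.permCongrHom.toMonoidHom.comp (MulAction.toPermHom G (orbit G a))
  have hπk : ∀ g, g ∈ π.ker → ∀ x ∈ orbit G a, g • x = x := by
    intro g hg x hx
    have h1 : MulAction.toPermHom G (orbit G a) g = 1 :=
      ε.permCongrHom.injective (hg.trans (map_one ε.permCongrHom).symm)
    exact congrArg (fun p : Perm (orbit G a) => (p ⟨x, hx⟩).1) h1
  have hinv : ∀ (g : G) (x : Fin 8), g • x ∈ orbit G a ↔ x ∈ orbit G a :=
    fun g x => ⟨fun h => by simpa using mem_orbit_of_mem_orbit g⁻¹ h,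
      fun h => mem_orbit_of_mem_orbit g h⟩
  let C := {x : Fin 8 // x ∉ orbit G a}
  have hC : Nat.card C = 8 - m := by
    rw [← hm, Nat.card_eq_fintype_card, Nat.card_eq_fintype_card, Fintype.card_subtype_compl,
      Fintype.card_fin]
  let r : π.ker →* Perm C := MonoidHom.mk'
    (fun k => (φ k).subtypePerm (fun x => not_congr (hinv k x))) (fun s t => Equiv.ext fun x => by
      apply Subtype.ext
      show φ ((s : G) * t) x.1 = φ s (φ t x.1)
      rw [map_mul]; rfl)
  have hr : Function.Injective r := by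
    intro s t h
    apply Subtype.ext
    apply hφ
    apply Equiv.ext
    intro x
    by_cases hx : x ∈ orbit G a
    · exact (hπk _ s.2 x hx).trans (hπk _ t.2 x hx).symm
    · exact congrArg (fun p : Perm C => (p ⟨x, hx⟩).1) h
  have hre : ∀ k, r k ∈ alternatingGroup C := by
    intro k
    rw [Perm.mem_alternatingGroup]
    refine Eq.trans (Perm.sign_subtypePerm (φ k) (fun x => not_congr (hinv k x))
      (fun x hx hxo => hx (hπk _ k.2 x hxo))) (he k)
  have hKd : Nat.card π.ker ∣ Nat.card (alternatingGroup C) :=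
    Subgroup.card_dvd_of_injective (r.codRestrict _ hre)
      (fun s t h => hr (congrArg Subtype.val h))
  have hK1 : 6 ≤ m → π.ker = ⊥ := by
    intro h6
    refine Subgroup.eq_bot_of_card_eq _ ?_
    have h2 : Nat.card C ≤ 2 := by omega
    by_cases hn : Nontrivial C
    · have := two_mul_nat_card_alternatingGroup (α := C)
      rw [Nat.card_perm] at this
      have : (Nat.card C).factorial ≤ 2 := (Nat.factorial_le h2).trans_eq rfl
      have hpos : 0 < Nat.card (alternatingGroup C) := Nat.card_pos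
      have : Nat.card (alternatingGroup C) = 1 := by omega
      rw [this] at hKd
      exact Nat.dvd_one.1 hKd
    · rw [not_nontrivial_iff_subsingleton] at hn
      rw [Nat.card_eq_one_iff_unique]
      exact ⟨hr.subsingleton, ⟨1⟩⟩
  have hsol : Group.IsSolvable π.ker := by
    haveI := solvable_perm_small (α := C) (by omega)
    exact Group.isSolvable_of_isSolvable_injective (f := r) hr
  have hR : ¬ Group.IsSolvable π.range := by
    intro hs
    refine hG (solvable_of_hom π.rangeRestrict hs ?_)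
    rwa [MonoidHom.ker_rangeRestrict]
  have hπtr : ∀ x y, ∃ g, π g x = y := by
    intro x y
    obtain ⟨g, hg⟩ := exists_smul_eq G (ε.symm x) (ε.symm y)
    refine ⟨g, ?_⟩
    show ε (g • ε.symm x) = y
    rw [hg, Equiv.apply_symm_apply]
  have hπe : 7 ≤ m → ∀ g, Perm.sign (π g) = 1 := by
    intro h7 g
    haveI : Subsingleton C := Finite.card_le_one_iff_subsingleton.1 (by omega)
    show Perm.sign (ε.permCongr _) = 1
    rw [Perm.sign_permCongr]
    have h1 : Perm.sign ((φ g).subtypePerm (p := fun x => x ∈ orbit G a) (fun x => hinv g x)) = 1 := by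
      refine Eq.trans (Perm.sign_subtypePerm (φ g) (fun x => hinv g x) (fun x hx => ?_)) (he g)
      by_contra hxo
      exact hx (congrArg Subtype.val (Subsingleton.elim (α := C)
        ⟨φ g x, fun h => hxo ((hinv g x).1 h)⟩ ⟨x, hxo⟩))
    convert h1 using 2
    exact Equiv.ext fun x => rfl
  interval_cases m
  · -- five
    have h5 := five π.range.subtype Subtype.val_injective hR
    let eq : G ⧸ π.ker ≃* π.range := QuotientGroup.quotientKerEquivRange π
    have hd3 : Nat.card π.ker ∣ 3 := by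
      have hA : Nat.card (alternatingGroup C) = 3 := by
        haveI : Nontrivial C := Finite.one_lt_card_iff_nontrivial.1 (by omega)
        have h2A := two_mul_nat_card_alternatingGroup (α := C)
        rw [Nat.card_perm, hC] at h2A
        exact Nat.eq_of_mul_eq_mul_left (by norm_num : 0 < 2) (h2A.trans (by decide))
      rwa [hA] at hKd
    rcases (Nat.dvd_prime Nat.prime_three).1 hd3 with h1 | h3
    · have hbot : π.ker = ⊥ := Subgroup.eq_bot_of_card_eq _ h1
      let e : G ≃* π.range := MonoidHom.ofInjective ((MonoidHom.ker_eq_bot_iff π).1 hbot)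
      rcases h5 with ⟨⟨e5⟩⟩ | ⟨⟨e5⟩⟩
      · exact Or.inl ⟨e.trans e5⟩
      · exact Or.inr (Or.inl ⟨e.trans e5⟩)
    · have hcore : pCore 3 G = π.ker := by
        haveI : Fact (Nat.Prime 3) := ⟨Nat.prime_three⟩
        refine le_antisymm ?_ (PSolv.le_pCore (MonoidHom.normal_ker π)
          (IsPGroup.of_card (p := 3) (n := 1) (by rw [h3, pow_one])))
        have h := PSolv.map_pCore_le (p := 3) π.rangeRestrict π.rangeRestrict_surjective
        rw [pThree_eq_bot h5, le_bot_iff, Subgroup.map_eq_bot_iff, MonoidHom.ker_rangeRestrict] at h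
        exact h
      refine Or.inr (Or.inr (Or.inr (Or.inr (Or.inr (Or.inr (Or.inr ⟨by rw [hcore, h3], ?_⟩))))))
      let e : G ⧸ pCore 3 G ≃* π.range := (QuotientGroup.quotientMulEquivOfEq hcore).trans eq
      rcases h5 with ⟨⟨e5⟩⟩ | ⟨⟨e5⟩⟩
      · exact Or.inl ⟨e.trans e5⟩
      · exact Or.inr ⟨e.trans e5⟩
  · -- six
    have hi := (MonoidHom.ker_eq_bot_iff π).1 (hK1 le_rfl)
    rcases six π hi hG hO with h | h | h | h
    · exact Or.inl h
    · exact Or.inr (Or.inl h)
    · exact Or.inr (Or.inr (Or.inl h))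
    · exact Or.inr (Or.inr (Or.inr (Or.inl h)))
  · -- seven
    have hi := (MonoidHom.ker_eq_bot_iff π).1 (hK1 (by norm_num))
    rcases seven π hi hG (hπe le_rfl) hπtr with h | h
    · exact Or.inr (Or.inr (Or.inr (Or.inr (Or.inl h))))
    · exact Or.inr (Or.inr (Or.inr (Or.inr (Or.inr (Or.inr (Or.inl h))))))
  · -- eight
    have hi := (MonoidHom.ker_eq_bot_iff π).1 (hK1 (by norm_num))
    rcases eight π hi (hπe (by norm_num)) hπtr hG hO with h | h
    · exact Or.inr (Or.inr (Or.inr (Or.inr (Or.inr (Or.inl h)))))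
    · exact Or.inr (Or.inr (Or.inr (Or.inr (Or.inr (Or.inr (Or.inl h))))))

/-- A nontrivial solvable group has a non-trivial `O₂` or a non-trivial core of odd order. -/
theorem not_solvable_of_cores {G : Type u} [Group G] [Finite G] [Nontrivial G]
    (hO : pPrimeCore 2 G = ⊥) (hO2 : pCore 2 G = ⊥) : ¬ Group.IsSolvable G := by
  intro hs
  haveI : Fact (Nat.Prime 2) := ⟨Nat.prime_two⟩
  obtain ⟨N, hN, hNb, hNc⟩ := PermLib.exists_commutative_normal_of_solvable hs
  by_cases h2 : 2 ∣ Nat.card N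
  · let W : Subgroup G :=
      { carrier := {x | x ∈ N ∧ x ^ 2 = 1}
        one_mem' := ⟨N.one_mem, one_pow 2⟩
        mul_mem' := by
          intro x y hx hy
          refine ⟨N.mul_mem hx.1 hy.1, ?_⟩
          have hxy : Commute x y := congrArg Subtype.val (hNc.is_comm.comm ⟨x, hx.1⟩ ⟨y, hy.1⟩)
          rw [hxy.mul_pow, hx.2, hy.2, one_mul]
        inv_mem' := by
          intro x hx
          exact ⟨N.inv_mem hx.1, by rw [inv_pow, hx.2, inv_one]⟩ }
    have hW : W.Normal := ⟨fun x hx g => ⟨hN.conj_mem x hx.1 g, by rw [conj_pow, hx.2]; group⟩⟩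
    have := PSolv.le_pCore hW (fun x => ⟨1, Subtype.ext (by rw [pow_one]; exact x.2.2)⟩ : IsPGroup 2 W)
    rw [hO2, le_bot_iff] at this
    obtain ⟨x, hx⟩ := exists_prime_orderOf_dvd_card' (G := N) 2 h2
    have hxW : (x : G) ∈ W := ⟨x.2, by
      rw [← Subgroup.coe_pow, ← hx, pow_orderOf_eq_one]; rfl⟩
    rw [this, Subgroup.mem_bot] at hxW
    rw [show x = 1 from Subtype.ext hxW, orderOf_one] at hx
    exact absurd hx (by norm_num)
  · have := PSolv.le_pPrimeCore hN ((Nat.Prime.coprime_iff_not_dvd Nat.prime_two).2 h2).symm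
    rw [hO, le_bot_iff] at this
    exact hNb this

/-- `PSL(2, 7)` as `GL(3, 2)`. -/
theorem simple_equiv_gl {G : Type u} [Group G] [Finite G] (hs : IsSimpleGroup G)
    (hc : Nat.card G = 168) : Nonempty (G ≃* GL (Fin 3) (ZMod 2)) := by
  haveI := hs
  haveI : Fact (Nat.Prime 7) := ⟨by norm_num⟩
  obtain ⟨e1⟩ := SmallPSL.equiv_seven hc (F := ZMod 7) (ZMod.card 7)
  obtain ⟨e2⟩ := S0255.result (F := ZMod 7) (K := ZMod 2) (ZMod.card 7) (ZMod.card 2)
  have hZ : Subgroup.center (Matrix.SpecialLinearGroup (Fin 3) (ZMod 2)) = ⊥ := by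
    rw [← Subgroup.card_eq_one, Cfsg.Agent.Linear.card_center_SL]
    simp [ZMod.card]
  let e3 : Matrix.ProjectiveSpecialLinearGroup (Fin 3) (ZMod 2) ≃*
      Matrix.SpecialLinearGroup (Fin 3) (ZMod 2) :=
    (QuotientGroup.quotientMulEquivOfEq hZ).trans QuotientGroup.quotientBot
  have hb : Function.Bijective
      (Matrix.SpecialLinearGroup.toGL : Matrix.SpecialLinearGroup (Fin 3) (ZMod 2) →* GL (Fin 3) (ZMod 2)) := by
    constructor
    · intro A B h
      exact Subtype.ext (congrArg Units.val h)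
    · intro A
      have h1 : ∀ d : ZMod 2, IsUnit d → d = 1 := by
        intro d hd
        fin_cases d
        · exact absurd hd not_isUnit_zero
        · rfl
      exact ⟨⟨A.1, h1 _ ((Matrix.isUnit_iff_isUnit_det _).1 A.isUnit)⟩, Units.ext rfl⟩
  exact ⟨e1.trans (e2.trans (e3.trans (MulEquiv.ofBijective _ hb)))⟩

/-- `GL(4, 2)` inside `A₈`. -/
theorem exists_gl_four_embed :
    ∃ f : GL (Fin 4) (ZMod 2) →* alternatingGroup (Fin 8), Function.Injective f := by
  obtain ⟨e⟩ := S0256.result (F := ZMod 2) (ZMod.card 2)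
  obtain ⟨g, hg⟩ := exists_sl_four_embed_psl (F := ZMod 2) (ZMod.card 2)
  have h1 : ∀ d : ZMod 2, IsUnit d → d = 1 := by
    intro d hd
    fin_cases d
    · exact absurd hd not_isUnit_zero
    · rfl
  let ι : GL (Fin 4) (ZMod 2) →* Matrix.SpecialLinearGroup (Fin 4) (ZMod 2) :=
    MonoidHom.mk' (fun A => ⟨A.1, h1 _ ((Matrix.isUnit_iff_isUnit_det _).1 A.isUnit)⟩)
      (fun A B => Subtype.ext (Units.val_mul A B))
  exact ⟨(e.toMonoidHom.comp g).comp ι, (e.injective.comp hg).comp
    (fun A B h => Units.ext (congrArg Subtype.val h :))⟩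

end Cfsg.Agent.TwoAut.SubEight
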