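import Cfsg.Agent.TwoAut.SuzukiPolar
import Cfsg.Agent.Suzuki.Sylow
import Cfsg.Agent.PSolv.Cores
import Cfsg.Prelude.Def_Transfer

/-!
# Automorphisms of the Sylow 2-subgroup of a Suzuki group
-/

set_option autoImplicit false
set_option linter.all false

namespace Cfsg.Agent.TwoAut.SzSylow

open Cfsg Cfsg.Agent.Suzuki

universe u v

/-- Coordinates of a group of the shape of the Sylow 2-subgroup. -/
structure Coords (S : Type v) [Group S] (F : Type u) [Field F] [Fintype F] (m : ℕ)
    [SuzukiField F m] where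
  e : S ≃ F × F
  map_mul : ∀ x y : S, e (x * y) =
    ((e x).1 + (e y).1, (e x).2 + (e y).2 + th F m (e x).1 * (e y).1)

variable {F : Type u} [Field F] [Fintype F] {m : ℕ} [hS : SuzukiField F m]

/-- Coordinates on the unipotent subgroup. -/
noncomputable def unipCoords : Coords ↥(unip F m) F m where
  e := (unipEquiv F m).symm
  map_mul x y := by
    obtain ⟨⟨a, b⟩, rfl⟩ := (unipEquiv F m).surjective x
    obtain ⟨⟨c, d⟩, rfl⟩ := (unipEquiv F m).surjective y
    rw [Equiv.symm_apply_eq, Equiv.symm_apply_apply, Equiv.symm_apply_apply]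
    exact Subtype.ext (gT_mul a b c d)

/-- Transport of coordinates. -/
def Coords.congr {S : Type v} [Group S] {T : Type*} [Group T] (c : Coords S F m) (f : T ≃* S) :
    Coords T F m where
  e := f.toEquiv.trans c.e
  map_mul x y := by
    show c.e (f (x * y)) = _
    rw [_root_.map_mul]
    exact c.map_mul _ _

variable {S : Type v} [Group S] (c : Coords S F m)

/-- First coordinate. -/
def A (x : S) : F := (c.e x).1

/-- Second coordinate. -/
def B (x : S) : F := (c.e x).2

theorem A_mul (x y : S) : A c (x * y) = A c x + A c y := congrArg Prod.fst (c.map_mul x y)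

theorem B_mul (x y : S) : B c (x * y) = B c x + B c y + th F m (A c x) * A c y :=
  congrArg Prod.snd (c.map_mul x y)

theorem coords_ext {x y : S} (h1 : A c x = A c y) (h2 : B c x = B c y) : x = y :=
  c.e.injective (Prod.ext h1 h2)

/-- The element with given coordinates. -/
def mk (a b : F) : S := c.e.symm (a, b)

theorem A_mk (a b : F) : A c (mk c a b) = a := congrArg Prod.fst (c.e.apply_symm_apply _)

theorem B_mk (a b : F) : B c (mk c a b) = b := congrArg Prod.snd (c.e.apply_symm_apply _)

theorem A_one : A c 1 = 0 := by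
  have := A_mul c 1 1
  rw [one_mul] at this
  exact left_eq_add.1 this

theorem A_inv (x : S) : A c x⁻¹ = A c x := by
  have := A_mul c x⁻¹ x
  rw [inv_mul_cancel, A_one, eq_comm, CharTwo.add_eq_zero] at this
  exact this

theorem mem_center_iff {x : S} : x ∈ Subgroup.center S ↔ A c x = 0 := by
  rw [Subgroup.mem_center_iff]
  constructor
  · intro h
    have key : ∀ a, th F m a * A c x = th F m (A c x) * a := fun a => by
      have := congrArg (B c) (h (mk c a 0))
      rw [B_mul, B_mul, A_mk, B_mk] at this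
      linear_combination this
    have h1 := key 1
    rw [map_one, one_mul, mul_one] at h1
    rcases th_eq_self h1.symm with h2 | h2
    · exact h2
    · obtain ⟨a, ha0, ha1⟩ := exists_ne_zero_ne_one (F := F) (m := m)
      have := key a
      rw [h2, map_one, one_mul, mul_one] at this
      exact ((th_eq_self this).elim ha0 ha1).elim
  · intro h y
    refine coords_ext c (by rw [A_mul, A_mul, add_comm]) ?_
    rw [B_mul, B_mul, h, map_zero]
    ring

theorem A_map_of_zero (φ : MulAut S) {x : S} (h : A c x = 0) : A c (φ x) = 0 := by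
  rw [← mem_center_iff c, Subgroup.mem_center_iff] at h ⊢
  intro y
  obtain ⟨z, rfl⟩ := φ.surjective y
  rw [← map_mul, ← map_mul, h z]

theorem A_map_eq (φ : MulAut S) {x y : S} (h : A c x = A c y) : A c (φ x) = A c (φ y) := by
  have := A_map_of_zero c φ (x := x⁻¹ * y)
    (by rw [A_mul, A_inv, h, CharTwo.add_self_eq_zero])
  rw [map_mul, map_inv, A_mul, A_inv, CharTwo.add_eq_zero] at this
  exact this

/-- The induced map on the first coordinate. -/
def tMap (φ : MulAut S) (a : F) : F := A c (φ (mk c a 0))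

theorem A_map (φ : MulAut S) (x : S) : A c (φ x) = tMap c φ (A c x) :=
  A_map_eq c φ (A_mk c _ _).symm

theorem tMap_one (a : F) : tMap c 1 a = a := A_mk c a 0

theorem tMap_mul (φ ψ : MulAut S) (a : F) : tMap c (φ * ψ) a = tMap c φ (tMap c ψ a) :=
  A_map c φ _

/-- The action on the first coordinate. -/
noncomputable def theta : MulAut S →* Equiv.Perm F where
  toFun φ :=
    { toFun := tMap c φ
      invFun := tMap c φ⁻¹
      left_inv := fun a => by rw [← tMap_mul, inv_mul_cancel, tMap_one]
      right_inv := fun a => by rw [← tMap_mul, mul_inv_cancel, tMap_one] }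
  map_one' := Equiv.ext (tMap_one c)
  map_mul' φ ψ := Equiv.ext (tMap_mul c φ ψ)

theorem A_map' (φ : MulAut S) (x : S) : A c (φ x) = theta c φ (A c x) := A_map c φ x

/-- The image of an automorphism is semilinear. -/
theorem theta_semilinear (φ : MulAut S) :
    ∃ (t : Fˣ) (τ : F ≃+* F), ∀ a, theta c φ a = t * τ a := by
  refine exists_semilinear (m := m) _ (theta c φ).bijective ?_
    (fun k => B c (φ (mk c 0 k))) ?_ ?_
  · intro a b
    rw [← A_mk c a 0, ← A_mk c b 0, ← A_mul, ← A_map', ← A_map', ← A_map', map_mul, A_mul]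
  · intro k l
    have : mk c 0 (k + l) = mk c 0 k * mk c 0 l := by
      refine coords_ext c ?_ ?_
      · rw [A_mul, A_mk, A_mk, A_mk, add_zero]
      · rw [B_mul, B_mk, B_mk, B_mk, A_mk, A_mk, mul_zero, add_zero]
    rw [this, map_mul, B_mul, A_map_of_zero c φ (A_mk c 0 l), mul_zero, add_zero]
  · intro a
    have : mk c 0 (th F m a * a) = mk c a 0 * mk c a 0 := by
      refine coords_ext c ?_ ?_
      · rw [A_mk, A_mul, CharTwo.add_self_eq_zero]
      · rw [B_mk, B_mul, CharTwo.add_self_eq_zero, zero_add, A_mk]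
    rw [this, map_mul, B_mul, CharTwo.add_self_eq_zero, zero_add, A_map', A_mk]

variable [Finite S]

theorem exists_aut (t : Fˣ) (τ : F ≃+* F) :
    ∃ φ : MulAut S, ∀ a, theta c φ a = t * τ a := by
  let f : S →* S := MonoidHom.mk'
    (fun x => mk c (t * τ (A c x)) (th F m t * t * τ (B c x))) (by
      intro x y
      refine coords_ext c ?_ ?_
      · simp only [A_mk, A_mul, map_add, mul_add]
      · simp only [B_mk, A_mk, B_mul, map_add, map_mul, Θ_comm]
        ring)
  have hf : Function.Injective f := by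
    intro x y h
    have ht : (t : F) ≠ 0 := t.ne_zero
    have h1 := congrArg (A c) h
    have h2 := congrArg (B c) h
    simp only [f, MonoidHom.mk'_apply, A_mk, B_mk] at h1 h2
    exact coords_ext c (τ.injective (mul_left_cancel₀ ht h1))
      (τ.injective (mul_left_cancel₀ (mul_ne_zero ((map_ne_zero _).2 ht) ht) h2))
  refine ⟨MulEquiv.ofBijective f (Finite.injective_iff_bijective.1 hf), fun a => ?_⟩
  rw [← A_mk c a 0, ← A_map', A_mk]
  show A c (f (mk c a 0)) = _
  simp only [f, MonoidHom.mk'_apply, A_mk]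

theorem card_theta_range :
    Nat.card (theta c).range = (2 ^ (2 * m + 1) - 1) * Nat.card (F ≃+* F) := by
  let g : Fˣ × (F ≃+* F) → (theta c).range := fun p =>
    ⟨theta c (exists_aut c p.1 p.2).choose, ⟨_, rfl⟩⟩
  have hg : Function.Bijective g := by
    constructor
    · intro p r h
      have h' : ∀ a, (p.1 : F) * p.2 a = r.1 * r.2 a := fun a => by
        rw [← (exists_aut c p.1 p.2).choose_spec, ← (exists_aut c r.1 r.2).choose_spec]
        exact congrArg (fun z : Equiv.Perm F => z a) (congrArg Subtype.val h)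
      have h1 : p.1 = r.1 := Units.ext (by simpa using h' 1)
      refine Prod.ext h1 (RingEquiv.ext fun a => ?_)
      have := h' a
      rw [h1] at this
      exact mul_left_cancel₀ r.1.ne_zero this
    · rintro ⟨_, φ, rfl⟩
      obtain ⟨t, τ, h⟩ := theta_semilinear c φ
      refine ⟨(t, τ), Subtype.ext (Equiv.ext fun a => ?_)⟩
      rw [h]
      exact (exists_aut c t τ).choose_spec a
  rw [← Nat.card_eq_of_bijective g hg, Nat.card_prod, Nat.card_units, Nat.card_eq_fintype_card,
    hS.card]

/-- Additive maps into the centre give automorphisms. -/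
theorem exists_ker_hom :
    ∃ Φ : Multiplicative (F →+ F) →* MulAut S,
      Function.Injective Φ ∧ Φ.range = (theta c).ker := by
  let mapOf : (F →+ F) → S → S := fun h x => mk c (A c x) (B c x + h (A c x))
  have hcomp : ∀ h h' x, mapOf h (mapOf h' x) = mapOf (h + h') x := by
    intro h h' x
    refine coords_ext c ?_ ?_
    · simp [mapOf, A_mk]
    · simp [mapOf, A_mk, B_mk]
      ring
  have hzero : ∀ x, mapOf 0 x = x := by
    intro x
    refine coords_ext c ?_ ?_
    · simp [mapOf, A_mk]
    · simp [mapOf, B_mk]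
  have hneg : ∀ h : F →+ F, h + h = 0 := fun h => by
    ext a
    simp [CharTwo.add_self_eq_zero]
  let autOf : (F →+ F) → MulAut S := fun h =>
    { toFun := mapOf h
      invFun := mapOf h
      left_inv := fun x => by rw [hcomp, hneg, hzero]
      right_inv := fun x => by rw [hcomp, hneg, hzero]
      map_mul' := fun x y => by
        refine coords_ext c ?_ ?_
        · simp [mapOf, A_mk, A_mul]
        · simp [mapOf, A_mk, B_mk, A_mul, B_mul]
          ring }
  let Φ : Multiplicative (F →+ F) →* MulAut S :=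
    MonoidHom.mk' (fun h => autOf (Multiplicative.toAdd h))
      (fun h h' => MulEquiv.ext fun x => (hcomp _ _ x).symm)
  have hΦ : ∀ h x, Φ h x = mapOf (Multiplicative.toAdd h) x := fun h x => rfl
  refine ⟨Φ, ?_, ?_⟩
  · intro h h' e
    apply Multiplicative.toAdd.injective
    ext a
    have := congrArg (fun z : MulAut S => B c (z (mk c a 0))) e
    simp only [hΦ, mapOf, B_mk, A_mk, zero_add] at this
    exact this
  · refine le_antisymm ?_ ?_
    · rintro _ ⟨h, rfl⟩
      rw [MonoidHom.mem_ker]
      refine Equiv.ext fun a => ?_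
      rw [← A_mk c a 0, ← A_map', hΦ, A_mk]
      simp [mapOf, A_mk]
    · intro φ hφ
      rw [MonoidHom.mem_ker] at hφ
      have hA : ∀ x, A c (φ x) = A c x := fun x => by rw [A_map' c, hφ]; rfl
      obtain ⟨D, hD⟩ : ∃ D : S → F, ∀ x, D x = B c (φ x) + B c x := ⟨_, fun x => rfl⟩
      have hDm : ∀ x y, D (x * y) = D x + D y := by
        intro x y
        rw [hD, hD, hD, map_mul, B_mul, B_mul, hA, hA]
        linear_combination CharTwo.add_self_eq_zero (th F m (A c x) * A c y)
      have hD0 : ∀ z, A c z = 0 → D z = 0 := by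
        intro z hz
        have hinj : Function.Injective (fun k : F => th F m k * k) := by
          intro a b h
          simp only at h
          rcases eq_or_ne b 0 with rfl | hb
          · rw [map_zero, zero_mul, mul_eq_zero, map_eq_zero] at h
            exact h.elim id id
          · refine (div_eq_one_iff_eq hb).1 (th_mul_self_eq_one (m := m) ?_)
            rw [map_div₀, div_mul_div_comm, h, div_self (mul_ne_zero ((map_ne_zero _).2 hb) hb)]
        obtain ⟨r, hr⟩ := (Finite.injective_iff_surjective.1 hinj) (B c z)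
        have hzx : z = mk c r 0 * mk c r 0 := coords_ext c
          (by rw [A_mul, CharTwo.add_self_eq_zero, hz])
          (by rw [B_mul, CharTwo.add_self_eq_zero, zero_add, A_mk]; exact hr.symm)
        rw [hzx, hDm, CharTwo.add_self_eq_zero]
      have hDA : ∀ x y, A c x = A c y → D x = D y := by
        intro x y hxy
        have := hDm x (x⁻¹ * y)
        rw [mul_inv_cancel_left, hD0 (x⁻¹ * y)
          (by rw [A_mul, A_inv, hxy, CharTwo.add_self_eq_zero]), add_zero] at this
        exact this.symm
      let h : F →+ F := AddMonoidHom.mk' (fun a => D (mk c a 0)) (by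
        intro a b
        rw [← hDm]
        exact hDA _ _ (by rw [A_mul, A_mk, A_mk, A_mk]))
      refine ⟨Multiplicative.ofAdd h, MulEquiv.ext fun x => ?_⟩
      rw [hΦ]
      refine coords_ext c ?_ ?_
      · simp [mapOf, A_mk, hA]
      · simp only [mapOf, B_mk, toAdd_ofAdd]
        show B c x + D (mk c (A c x) 0) = B c (φ x)
        rw [hDA (mk c (A c x) 0) x (A_mk c _ _), hD]
        linear_combination CharTwo.add_self_eq_zero (B c x)

theorem card_theta_ker : Nat.card (theta c).ker = 2 ^ ((2 * m + 1) ^ 2) := by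
  haveI : Fact (Nat.Prime 2) := ⟨Nat.prime_two⟩
  obtain ⟨Φ, hi, hr⟩ := exists_ker_hom c
  rw [← hr, ← Nat.card_congr (MonoidHom.ofInjective hi).toEquiv,
    Nat.card_congr Multiplicative.toAdd]
  letI : Module (ZMod 2) F := (ZMod.algebra F 2).toModule
  have h1 : Module.finrank (ZMod 2) F = 2 * m + 1 := by
    apply Nat.pow_right_injective (le_refl 2)
    show 2 ^ Module.finrank (ZMod 2) F = 2 ^ (2 * m + 1)
    conv_lhs => arg 1; rw [← Nat.card_zmod 2]
    rw [← Module.natCard_eq_pow_finrank, Nat.card_eq_fintype_card, hS.card]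
  rw [Nat.card_congr (AddMonoidHom.toZModLinearMapEquiv 2).toEquiv,
    Module.natCard_eq_pow_finrank (K := ZMod 2), Module.finrank_linearMap, h1, Nat.card_zmod]
  congr 1
  ring

theorem theta_ker_elementary : IsElementaryAbelian 2 (theta c).ker := by
  obtain ⟨Φ, hi, hr⟩ := exists_ker_hom c
  rw [← hr]
  refine ⟨⟨⟨?_⟩⟩, ?_⟩
  · rintro ⟨_, a, rfl⟩ ⟨_, b, rfl⟩
    apply Subtype.ext
    show Φ a * Φ b = Φ b * Φ a
    rw [← map_mul, ← map_mul, mul_comm]
  · rintro _ ⟨a, rfl⟩
    rw [← map_pow, sq]
    convert map_one Φ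
    apply Multiplicative.toAdd.injective
    ext x
    simp [CharTwo.add_self_eq_zero]

omit [Finite S] hS in
theorem perm_mul_pow (g : Equiv.Perm F) (t : F) (h : ∀ a, g a = t * a) (j : ℕ) (a : F) :
    (g ^ j) a = t ^ j * a := by
  induction j generalizing a with
  | zero => simp
  | succ j ih => rw [pow_succ, Equiv.Perm.mul_apply, h, ih]; ring

theorem pCore_eq_ker : pCore 2 (MulAut S) = (theta c).ker := by
  haveI : Fact (Nat.Prime 2) := ⟨Nat.prime_two⟩
  have hker : IsPGroup 2 ↥(theta c).ker := fun g =>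
    ⟨1, Subtype.ext ((theta_ker_elementary c).2 g g.2)⟩
  refine le_antisymm ?_ (PSolv.le_pCore (MonoidHom.normal_ker _) hker)
  intro φ hφ
  have unit_one : ∀ (ψ : MulAut S) (t : F), ψ ∈ pCore 2 (MulAut S) →
      (∀ a, theta c ψ a = t * a) → t = 1 := by
    intro ψ t hψ ht
    obtain ⟨k, hk⟩ := (PSolv.isPGroup_pCore 2 (MulAut S)) ⟨ψ, hψ⟩
    have h1 : ψ ^ 2 ^ k = 1 := congrArg Subtype.val hk
    have h2 := perm_mul_pow (theta c ψ) t ht (2 ^ k) 1
    rw [← map_pow (theta c), h1, map_one (theta c), Equiv.Perm.one_apply, mul_one] at h2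
    have h3 : (t - 1) ^ 2 ^ k = 0 := by
      rw [sub_pow_char_pow, one_pow, sub_eq_zero]
      exact h2.symm
    exact sub_eq_zero.1 (eq_zero_of_pow_eq_zero h3)
  obtain ⟨t, τ, hτ⟩ := theta_semilinear c φ
  have hτ1 : ∀ s : Fˣ, τ (s : F) = s := by
    intro s
    obtain ⟨ψ, hψ⟩ := exists_aut c s (RingEquiv.refl F)
    have hmem : φ * (ψ * φ⁻¹ * ψ⁻¹) ∈ pCore 2 (MulAut S) :=
      (pCore 2 (MulAut S)).mul_mem hφ
        ((Cfsg.pCore_normal 2 (MulAut S)).conj_mem _ (inv_mem hφ) ψ)
    have := unit_one _ (τ (s : F) / s) hmem (fun a => by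
      obtain ⟨b, rfl⟩ := (theta c (ψ * φ)).surjective a
      rw [← Equiv.Perm.mul_apply, ← map_mul,
        show φ * (ψ * φ⁻¹ * ψ⁻¹) * (ψ * φ) = φ * ψ by group,
        map_mul, map_mul, Equiv.Perm.mul_apply, Equiv.Perm.mul_apply, hψ, hτ, hψ, hτ,
        RingEquiv.refl_apply, RingEquiv.refl_apply, map_mul]
      field_simp)
    exact (div_eq_one_iff_eq s.ne_zero).1 this
  have hτ2 : ∀ a, τ a = a := by
    intro a
    by_cases ha : a = 0
    · rw [ha, map_zero]
    · exact hτ1 (Units.mk0 a ha)
  have := unit_one φ t hφ (fun a => by rw [hτ, hτ2])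
  rw [MonoidHom.mem_ker]
  refine Equiv.ext fun a => ?_
  rw [hτ, hτ2, this, one_mul]
  rfl

omit [Finite S] in
/-- The field has `2 * m + 1` automorphisms. -/
theorem card_ringEquiv : Nat.card (F ≃+* F) = 2 * m + 1 := by
  haveI : Fact (Nat.Prime 2) := ⟨Nat.prime_two⟩
  obtain ⟨n, hn, hn'⟩ := Cfsg.Agent.FieldMaps.card_aut (F := F) 2
  rw [Nat.card_eq_fintype_card, hn']
  exact Nat.pow_right_injective (le_refl 2) (hn.symm.trans hS.card)

end Cfsg.Agent.TwoAut.SzSylow
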