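import Cfsg.Agent.TwoAut.SubEightBasic
import Cfsg.Agent.TwoAut.EmbedGL
import Cfsg.Agent.Perm.JordanCycle
import Cfsg.Agent.Perm.PrimeIndex
import Cfsg.Agent.Perm.Regular
import Cfsg.Agent.S0256

/-!
# Non-solvable subgroups of `A₈` with trivial 2-core
-/

set_option autoImplicit false
set_option linter.all false

namespace Cfsg.Agent.TwoAut.SubEight

open Equiv Cfsg MulAction
open scoped Pointwise

universe u v

/-- A simple group of order 1344 does not act faithfully on `2^4`. -/
theorem no_simple_1344 {G : Type u} [Group G] [Finite G] [IsSimpleGroup G]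
    (hc : Nat.card G = 1344) {E : Type v} [CommGroup E] [Finite E] (h2 : ∀ e : E, e * e = 1)
    (hE : Nat.card E = 16) (φ : G →* MulAut E) (hφ : Function.Injective φ) : False := by
  classical
  haveI : Fact (Nat.Prime 2) := ⟨Nat.prime_two⟩
  have hnc : ¬ IsMulCommutative G := SmallGroups.not_isMulCommutative (by rw [hc]; norm_num)
  letI : MulAction G E := MulAction.compHom E φ
  have hsmul : ∀ (g : G) (e : E), g • e = φ g e := fun g e => rfl
  let T : Sylow 2 G := default
  have hT : Nat.card (T : Subgroup G) = 64 :=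
    (SmallGroups.card_sylow_subgroup (a := 6) (m := 21) (by rw [hc]; norm_num) (by norm_num) T).trans
      (by norm_num)
  have h1fix : (1 : E) ∈ fixedPoints (T : Subgroup G) E := fun t => map_one (φ t)
  obtain ⟨v, hv, hv1⟩ :=
    T.isPGroup'.exists_fixed_point_of_prime_dvd_card_of_fixed_point (α := E) (by rw [hE]; norm_num)
      h1fix
  have hfix : ∀ g : G, φ g v = v := by
    have hle : (T : Subgroup G) ≤ stabilizer G v := fun t ht => hv ⟨t, ht⟩
    have hd := Subgroup.index_dvd_of_le hle
    have hTi : (T : Subgroup G).index = 21 := by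
      have := (T : Subgroup G).card_mul_index
      rw [hT, hc] at this
      omega
    have hle16 : (stabilizer G v).index ≤ 16 := by
      rw [index_stabilizer, ← hE]
      exact Nat.card_le_card_of_injective _ Subtype.val_injective |>.trans' (by
        rw [Nat.card_coe_set_eq])
    have htop : stabilizer G v = ⊤ := by
      refine SmallGroups.eq_top_of_not_dvd hnc ?_
      rw [hTi] at hd
      rw [hc]
      generalize (stabilizer G v).index = i at *
      have := Nat.le_of_dvd (by norm_num) hd
      interval_cases i <;> revert hd <;> norm_num [Nat.factorial]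
    intro g
    have : g ∈ stabilizer G v := htop ▸ Subgroup.mem_top g
    exact this
  -- the action modulo `v`
  let N : Subgroup E := Subgroup.zpowers v
  have hmem : ∀ x : E, x ∈ N → x = 1 ∨ x = v := by
    intro x hx
    obtain ⟨i, rfl⟩ := Subgroup.mem_zpowers_iff.1 hx
    have hv2 : v ^ (2 : ℤ) = 1 := by rw [zpow_two, h2]
    rcases Int.even_or_odd i with ⟨j, rfl⟩ | ⟨j, rfl⟩
    · left; rw [show j + j = 2 * j by ring, zpow_mul, hv2, one_zpow]
    · right; rw [zpow_add, zpow_mul, hv2, one_zpow, one_mul, zpow_one]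
  have hmap : ∀ g, N.map (φ g).toMonoidHom = N := fun g => by
    rw [MonoidHom.map_zpowers]
    show Subgroup.zpowers (φ g v) = N
    rw [hfix]
  let ψ : G →* MulAut (E ⧸ N) :=
    MonoidHom.mk' (fun g => QuotientGroup.congr N N (φ g) (hmap g)) (fun g h => by
      apply MulEquiv.ext
      intro x
      refine QuotientGroup.induction_on x fun w => ?_
      show (QuotientGroup.mk (φ (g * h) w) : E ⧸ N) = QuotientGroup.mk (φ g (φ h w))
      rw [map_mul]; rfl)
  have hq : Nat.card (E ⧸ N) = 8 := by
    rw [← Subgroup.index_eq_card]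
    have h3 := N.card_mul_index
    have ho : orderOf v = 2 := orderOf_eq_prime (by rw [sq, h2]) (Ne.symm hv1)
    rw [Nat.card_zpowers, ho, hE] at h3
    omega
  let S := {x : E ⧸ N // x ≠ 1}
  have hS : Nat.card S = 7 := by
    haveI := Fintype.ofFinite (E ⧸ N)
    rw [Nat.card_eq_fintype_card, Fintype.card_subtype_compl, Fintype.card_subtype_eq,
      ← Nat.card_eq_fintype_card, hq]
  let χ : G →* Perm S := MonoidHom.mk'
    (fun g => (ψ g).toEquiv.subtypeEquiv (fun x => not_congr (MulEquiv.map_eq_one_iff (ψ g)).symm))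
    (fun g h => by
      apply Equiv.ext
      intro x
      apply Subtype.ext
      show ψ (g * h) x.1 = ψ g (ψ h x.1)
      rw [map_mul]; rfl)
  have htriv : ∀ g, χ g = 1 := by
    refine (SmallGroups.injective_or_trivial χ).resolve_left fun hi => ?_
    have := Subgroup.card_dvd_of_injective χ hi
    rw [hc, Nat.card_perm, hS] at this
    norm_num [Nat.factorial] at this
  have hdiff : ∀ g w, ∃ i, (i = 1 ∨ i = v) ∧ φ g w = w * i := by
    intro g w
    refine ⟨w⁻¹ * φ g w, hmem _ (QuotientGroup.eq.1 ?_), by rw [mul_inv_cancel_left]⟩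
    by_cases hw : (QuotientGroup.mk w : E ⧸ N) = 1
    · rw [hw]
      show 1 = ψ g (QuotientGroup.mk w)
      rw [hw, map_one]
    · exact (congrArg (fun p : Perm S => (p ⟨_, hw⟩).1) (htriv g)).symm
  refine hnc ⟨⟨fun g h => hφ (MulEquiv.ext fun w => ?_)⟩⟩
  obtain ⟨i, hi, hgw⟩ := hdiff g w
  obtain ⟨j, hj, hhw⟩ := hdiff h w
  have hgv : ∀ g k, (k = 1 ∨ k = v) → φ g k = k := by
    rintro g k (rfl | rfl)
    · exact map_one _
    · exact hfix g
  rw [map_mul, map_mul, MulAut.mul_apply, MulAut.mul_apply, hhw, hgw, map_mul, map_mul, hgw, hhw,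
    hgv g j hj, hgv h i hi]
  rw [mul_assoc, mul_assoc, mul_comm i j]

/-- `A₈` acts faithfully on `2^4`. -/
theorem exists_alt_eight_action :
    ∃ φ : alternatingGroup (Fin 8) →* MulAut (Multiplicative (Fin 4 → ZMod 2)),
      Function.Injective φ := by
  obtain ⟨e⟩ := S0256.result (F := ZMod 2) (ZMod.card 2)
  obtain ⟨g, hg⟩ := exists_sl_four_embed_psl (F := ZMod 2) (ZMod.card 2)
  have hb : Function.Bijective g := hg.bijective_of_nat_card_le
    (Nat.card_le_card_of_surjective _ (QuotientGroup.mk'_surjective _))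
  let ι : Matrix.SpecialLinearGroup (Fin 4) (ZMod 2) →* MulAut (Multiplicative (Fin 4 → ZMod 2)) :=
    MonoidHom.mk' (fun A =>
      AddEquiv.toMultiplicative
        { toFun := fun v => A.1.mulVec v
          invFun := fun v => (A⁻¹).1.mulVec v
          left_inv := fun v => by
            show (A⁻¹).1.mulVec (A.1.mulVec v) = v
            rw [Matrix.mulVec_mulVec, ← Matrix.SpecialLinearGroup.coe_mul, inv_mul_cancel,
              Matrix.SpecialLinearGroup.coe_one, Matrix.one_mulVec]
          right_inv := fun v => by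
            show A.1.mulVec ((A⁻¹).1.mulVec v) = v
            rw [Matrix.mulVec_mulVec, ← Matrix.SpecialLinearGroup.coe_mul, mul_inv_cancel,
              Matrix.SpecialLinearGroup.coe_one, Matrix.one_mulVec]
          map_add' := fun v w => Matrix.mulVec_add _ _ _ })
      (fun A B => MulEquiv.ext fun v => congrArg Multiplicative.ofAdd
        (show (A * B).1.mulVec v.toAdd = A.1.mulVec (B.1.mulVec v.toAdd) by
          rw [Matrix.SpecialLinearGroup.coe_mul, ← Matrix.mulVec_mulVec]))
  have hι : Function.Injective ι := by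
    intro A B h
    apply Subtype.ext
    apply Matrix.ext_of_mulVec_single
    intro i
    exact congrArg Multiplicative.toAdd (DFunLike.congr_fun h (Multiplicative.ofAdd (Pi.single i 1)))
  exact ⟨ι.comp ((MulEquiv.ofBijective g hb).symm.toMonoidHom.comp e.symm.toMonoidHom),
    hι.comp ((MulEquiv.ofBijective g hb).symm.injective.comp e.symm.injective)⟩

/-- A group all of whose orbits are small is solvable. -/
theorem solvable_of_small_orbits {G : Type u} [Group G] {α : Type v} [Finite α] [MulAction G α]
    [FaithfulSMul G α] (h : ∀ a : α, Nat.card (orbit G a) ≤ 4) : Group.IsSolvable G := by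
  have hs : ∀ a : α, ∃ n, derivedSeries (Perm (orbit G a)) n = ⊥ := fun a =>
    (solvable_perm_small (h a)).solvable
  choose n hn using hs
  obtain ⟨N, hN⟩ : ∃ N, ∀ a, n a ≤ N := by
    haveI := Fintype.ofFinite α
    exact ⟨Finset.univ.sup n, fun a => Finset.le_sup (Finset.mem_univ a)⟩
  refine ⟨⟨N, (Subgroup.eq_bot_iff_forall _).2 fun g hg => ?_⟩⟩
  refine FaithfulSMul.eq_of_smul_eq_smul (α := α) fun a => ?_
  have h1 := map_derivedSeries_le_derivedSeries (f := MulAction.toPermHom G (orbit G a)) (n := N)
    (Subgroup.mem_map_of_mem _ hg)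
  rw [eq_bot_iff.2 (le_of_le_of_eq (derivedSeries_antitone _ (hN a)) (hn a)), Subgroup.mem_bot] at h1
  rw [one_smul]
  exact congrArg (fun p : Perm (orbit G a) => (p ⟨a, mem_orbit_self a⟩).1) h1

/-- Transport of a trivial core. -/
theorem pCore_eq_bot_of_equiv {G : Type u} [Group G] {H : Type v} [Group H] (e : G ≃* H)
    {p : ℕ} (h : pCore p G = ⊥) : pCore p H = ⊥ := by
  have h1 := PSolv.map_pCore_le (p := p) (e.symm.toMonoidHom) e.symm.surjective
  rw [h, le_bot_iff, Subgroup.map_eq_bot_iff_of_injective _ e.symm.injective] at h1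
  exact h1

theorem neg_seven_odd : Perm.sign (Equiv.neg (ZMod 7)) = -1 := by decide +kernel

/-- Degree eight. -/
theorem eight {G : Type u} [Group G] [Finite G] (φ : G →* Perm (Fin 8))
    (hφ : Function.Injective φ) (he : ∀ g, Perm.sign (φ g) = 1) (htr : ∀ x y, ∃ g, φ g x = y)
    (hG : ¬ Group.IsSolvable G) (hO : pCore 2 G = ⊥) :
    Nonempty (G ≃* alternatingGroup (Fin 8)) ∨ (IsSimpleGroup G ∧ Nat.card G = 168) := by
  classical
  haveI : Fact (Nat.Prime 2) := ⟨Nat.prime_two⟩
  let e : G ≃* φ.range := MonoidHom.ofInjective hφ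
  have hI : ¬ Group.IsSolvable φ.range := fun hs => hG (by
    haveI := hs
    exact Group.isSolvable_of_isSolvable_injective (f := e.toMonoidHom) e.injective)
  have hcard : Nat.card G = Nat.card φ.range := Nat.card_congr e.toEquiv
  have hOI : pCore 2 φ.range = ⊥ := pCore_eq_bot_of_equiv e hO
  haveI : IsPretransitive φ.range (Fin 8) := ⟨fun x y => by
    obtain ⟨g, hg⟩ := htr x y
    exact ⟨⟨φ g, g, rfl⟩, hg⟩⟩
  have hdA : Nat.card G ∣ 20160 := by
    let ψ : G →* alternatingGroup (Fin 8) :=
      φ.codRestrict _ (fun g => Perm.mem_alternatingGroup.2 (he g))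
    have := Subgroup.card_dvd_of_injective ψ (fun a b h => hφ (congrArg Subtype.val h))
    rwa [card_alt 8 20160 (by norm_num) rfl] at this
  -- primitivity
  haveI hprim : IsPreprimitive φ.range (Fin 8) := ⟨fun {B} hB => by
    by_contra hcon
    simp only [IsTrivialBlock, not_or] at hcon
    obtain ⟨hsub, huniv⟩ := hcon
    have hne : B.Nonempty := Set.nonempty_iff_ne_empty.2 fun h => hsub (h ▸ Set.subsingleton_empty)
    have hmul := hB.ncard_block_mul_ncard_orbit_eq hne
    rw [Nat.card_fin] at hmul
    have h1 : 1 < B.ncard := (Set.one_lt_ncard).2 (by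
      simp only [Set.Subsingleton, not_forall] at hsub
      obtain ⟨x, hx, y, hy, hxy⟩ := hsub
      exact ⟨x, hx, y, hy, hxy⟩)
    have h2 : B.ncard < 8 := by
      have := Set.ncard_lt_ncard (Set.ssubset_univ_iff.2 huniv)
      rwa [Set.ncard_univ, Nat.card_fin] at this
    have hd : B.ncard ∣ 8 := Dvd.intro _ hmul
    have hb : B.ncard = 2 ∨ B.ncard = 4 := by
      generalize B.ncard = b at *
      interval_cases b <;> simp_all
    have ho : (orbit φ.range B).ncard ≤ 4 := by
      rcases hb with h | h <;> rw [h] at hmul <;> omega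
    refine hI (solvable_of_hom (MulAction.toPermHom φ.range (orbit φ.range B))
      (solvable_perm_small (by rwa [Nat.card_coe_set_eq])) ?_)
    refine solvable_of_small_orbits (α := Fin 8) fun a => ?_
    obtain ⟨b, hbB⟩ := hne
    obtain ⟨g, hg⟩ := exists_smul_eq φ.range b a
    have hsubset : orbit (MulAction.toPermHom φ.range (orbit φ.range B)).ker a ⊆ g • B := by
      rintro _ ⟨k, rfl⟩
      have hk : (k : φ.range) • (g • B) = g • B :=
        congrArg (fun p : Perm (orbit φ.range B) => (p ⟨g • B, mem_orbit B g⟩).1) k.2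
      show (k : φ.range) • a ∈ g • B
      rw [← hk, ← hg]
      exact Set.smul_mem_smul_set (Set.smul_mem_smul_set hbB)
    rw [Nat.card_coe_set_eq]
    refine (Set.ncard_le_ncard hsubset).trans ?_
    rw [Set.ncard_smul_set]
    omega⟩
  by_cases h5 : 5 ∣ Nat.card G
  · left
    haveI : Fact (Nat.Prime 5) := ⟨Nat.prime_five⟩
    obtain ⟨g, hg⟩ := exists_prime_orderOf_dvd_card' 5 h5
    have ho : orderOf (φ g) = 5 := (orderOf_injective φ hφ g).trans hg
    have hcyc : (φ g).IsCycle := Perm.isCycle_of_prime_order' (by rw [ho]; norm_num)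
      (by rw [ho, Fintype.card_fin]; norm_num)
    have hle := PermLib.alternatingGroup_le_of_prime_cycle hprim Nat.prime_five hcyc
      (by rw [← hcyc.orderOf, ho]) ⟨g, rfl⟩ (by rw [Fintype.card_fin])
    exact equiv_alt_of_inj φ hφ he ((Subgroup.card_le_of_le hle).trans_eq hcard.symm)
  right
  have h84 : 84 ∣ Nat.card G := by
    rcases dvd_of_nonsolvable hdA hG with h | h | h
    · exact absurd ((by norm_num : 5 ∣ 60).trans h) h5
    · exact h
    · exact absurd ((by norm_num : 5 ∣ 140).trans h) h5
  haveI : Fact (Nat.Prime 7) := ⟨by norm_num⟩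
  obtain ⟨σ, hσ⟩ := exists_prime_orderOf_dvd_card' (G := G) 7 ((by norm_num : 7 ∣ 84).trans h84)
  have ho : orderOf (φ σ) = 7 := (orderOf_injective φ hφ σ).trans hσ
  have hcyc : (φ σ).IsCycle := Perm.isCycle_of_prime_order' (by rw [ho]; norm_num)
    (by rw [ho, Fintype.card_fin]; norm_num)
  have hsupp : (φ σ).support.card = 7 := by rw [← hcyc.orderOf, ho]
  obtain ⟨a, ha⟩ : ∃ a, a ∉ (φ σ).support := by
    by_contra hcon
    push Not at hcon
    rw [Finset.eq_univ_iff_forall.2 hcon, Finset.card_univ, Fintype.card_fin] at hsupp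
    omega
  have hothers : ∀ x, x ≠ a → x ∈ (φ σ).support := by
    intro x hx
    by_contra hxs
    have := Finset.card_le_card (s := (φ σ).support) (t := (Finset.univ.erase a).erase x)
      (fun y hy => Finset.mem_erase.2 ⟨fun h => hxs (h ▸ hy),
        Finset.mem_erase.2 ⟨fun h => ha (h ▸ hy), Finset.mem_univ y⟩⟩)
    rw [hsupp, Finset.card_erase_of_mem (Finset.mem_erase.2 ⟨hx, Finset.mem_univ x⟩),
      Finset.card_erase_of_mem (Finset.mem_univ a), Finset.card_univ, Fintype.card_fin] at this
    omega
  let S := stabilizer φ.range a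
  have hmemS : ∀ s : φ.range, s ∈ S ↔ (s : Perm (Fin 8)) a = a := fun s => Iff.rfl
  have hSm : Nat.card G = 8 * Nat.card S := by
    rw [hcard, PermLib.card_eq_mul_card_stabilizer (G := φ.range) a, Nat.card_fin]
  have hr : ∀ (s : S) (x : Fin 8), ((s : φ.range) : Perm (Fin 8)) x ≠ a ↔ x ≠ a := by
    intro s x
    have := (hmemS s.1).1 s.2
    constructor
    · intro h hx
      exact h (by rw [hx, this])
    · intro h hx
      exact h (((s : φ.range) : Perm (Fin 8)).injective (by rw [hx, this]))
  let r : S →* Perm {x : Fin 8 // x ≠ a} := MonoidHom.mk'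
    (fun s => ((s : φ.range) : Perm (Fin 8)).subtypePerm (hr s))
    (fun s t => Equiv.ext fun x => rfl)
  let ε : {x : Fin 8 // x ≠ a} ≃ Fin 7 := Fintype.equivFinOfCardEq (by
    rw [Fintype.card_subtype_compl, Fintype.card_subtype_eq, Fintype.card_fin])
  let ψ : S →* Perm (Fin 7) := ε.permCongrHom.toMonoidHom.comp r
  have hψ : Function.Injective ψ := by
    intro s t h
    have h' : r s = r t := ε.permCongrHom.injective h
    apply Subtype.ext
    apply Subtype.ext
    apply Equiv.ext
    intro x
    by_cases hx : x = a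
    · rw [hx, (hmemS s.1).1 s.2, (hmemS t.1).1 t.2]
    · exact congrArg (fun p : Perm {x : Fin 8 // x ≠ a} => (p ⟨x, hx⟩).1) h'
  have hψe : ∀ s, Perm.sign (ψ s) = 1 := by
    intro s
    show Perm.sign (ε.permCongr (r s)) = 1
    rw [Perm.sign_permCongr]
    show Perm.sign (Perm.subtypePerm ((s : φ.range) : Perm (Fin 8)) (hr s)) = 1
    refine Eq.trans (Perm.sign_subtypePerm _ (hr s)
      (fun x hx (hxa : x = a) => hx (by rw [hxa]; exact (hmemS s.1).1 s.2))) ?_
    obtain ⟨g, hg⟩ := (s : φ.range).2
    rw [← hg, he]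
  have hσS : (⟨φ σ, σ, rfl⟩ : φ.range) ∈ S := (hmemS _).2 (Perm.notMem_support.1 ha)
  have hψtr : ∀ x y, ∃ s, ψ s x = y := by
    intro x y
    obtain ⟨i, hi⟩ := hcyc.sameCycle (Perm.mem_support.1 (hothers _ (ε.symm x).2))
      (Perm.mem_support.1 (hothers _ (ε.symm y).2))
    refine ⟨(⟨⟨φ σ, σ, rfl⟩, hσS⟩ : S) ^ i, ?_⟩
    show ε (r ((⟨⟨φ σ, σ, rfl⟩, hσS⟩ : S) ^ i) (ε.symm x)) = y
    rw [← Equiv.eq_symm_apply]
    apply Subtype.ext
    show ((((⟨⟨φ σ, σ, rfl⟩, hσS⟩ : S) ^ i : S) : φ.range) : Perm (Fin 8)) (ε.symm x).1 = _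
    rw [← hi]
    simp
  by_cases hS : Group.IsSolvable S
  · haveI : IsPretransitive ψ.range (Fin 7) := ⟨fun x y => by
      obtain ⟨g, hg⟩ := hψtr x y
      exact ⟨⟨ψ g, g, rfl⟩, hg⟩⟩
    let eS : S ≃* ψ.range := MonoidHom.ofInjective hψ
    have hRs : Group.IsSolvable ψ.range := by
      haveI := hS
      exact Group.isSolvable_of_surjective (f := ψ.rangeRestrict) ψ.rangeRestrict_surjective
    haveI : IsPreprimitive ψ.range (Fin 7) := IsPreprimitive.of_prime_card (by
      rw [Nat.card_fin]; norm_num)
    haveI : Nontrivial ψ.range := by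
      rw [← Finite.one_lt_card_iff_nontrivial, ← Nat.card_congr eS.toEquiv]
      omega
    obtain ⟨N, hN, hNb, hNc⟩ := PermLib.exists_commutative_normal_of_solvable hRs
    haveI := hN
    haveI hNt := PermLib.isPretransitive_of_normal_ne_bot (α := Fin 7) hNb
    have hstab : stabilizer N (0 : Fin 7) = ⊥ := by
      rw [Subgroup.eq_bot_iff_forall]
      intro t ht
      refine FaithfulSMul.eq_of_smul_eq_smul (α := Fin 7) fun x => ?_
      obtain ⟨g, rfl⟩ := exists_smul_eq N (0 : Fin 7) x
      rw [one_smul, smul_smul, hNc.is_comm.comm t g, ← smul_smul]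
      rw [show t • (0 : Fin 7) = 0 from ht]
    have hN7 : Nat.card N = 7 := by
      rw [PermLib.card_eq_mul_card_stabilizer (G := N) (0 : Fin 7), hstab, Subgroup.card_bot,
        Nat.card_fin, mul_one]
    obtain ⟨P, hP⟩ := (IsPGroup.of_card (n := 1) (by rw [hN7, pow_one])).exists_le_sylow
      (G := ψ.range)
    have hP7 : Nat.card (P : Subgroup ψ.range) = 7 :=
      PermLib.card_sylow_of_prime_degree (Fintype.card_fin 7) P
    have hPN : (P : Subgroup ψ.range) = N :=
      (Subgroup.eq_of_le_of_card_ge hP (by rw [hP7, hN7])).symm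
    have hle : ψ.range ≤ alternatingGroup (Fin 7) := by
      rintro _ ⟨s, rfl⟩
      exact Perm.mem_alternatingGroup.2 (hψe s)
    have hodd := PermLib.odd_normalizer_of_le_alternating (p := 7) (by norm_num) neg_seven_odd
      (Fintype.card_fin 7) ψ.range hle P
    rw [hPN, Subgroup.normalizer_eq_top_iff.2 hN, Subgroup.card_top] at hodd
    -- a point stabiliser embeds into the automorphisms of `N`
    have hc : Function.Injective
        ((MulAut.conjNormal : ψ.range →* MulAut N).comp (stabilizer ψ.range (0 : Fin 7)).subtype) := by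
      rw [injective_iff_map_eq_one]
      intro t ht
      apply Subtype.ext
      refine FaithfulSMul.eq_of_smul_eq_smul (α := Fin 7) fun x => ?_
      obtain ⟨g, rfl⟩ := exists_smul_eq N (0 : Fin 7) x
      have h2 := congrArg Subtype.val (DFunLike.congr_fun ht g)
      have h3 : (t : ψ.range) * g = g * t := by
        rw [← mul_inv_eq_iff_eq_mul]
        simpa using h2
      show (t : ψ.range) • (g : ψ.range) • (0 : Fin 7) = (1 : ψ.range) • (g : ψ.range) • (0 : Fin 7)
      rw [one_smul, smul_smul, h3, mul_smul, show (t : ψ.range) • (0 : Fin 7) = 0 from t.2]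
    have hT6 : Nat.card (stabilizer ψ.range (0 : Fin 7)) ∣ 6 := by
      haveI : IsCyclic N := isCyclic_of_prime_card hN7
      have := Subgroup.card_dvd_of_injective _ hc
      rwa [IsCyclic.card_mulAut, hN7, Nat.totient_prime (by norm_num)] at this
    have hS7 : Nat.card ψ.range = 7 * Nat.card (stabilizer ψ.range (0 : Fin 7)) := by
      rw [PermLib.card_eq_mul_card_stabilizer (G := ψ.range) (0 : Fin 7), Nat.card_fin]
    rw [Nat.card_congr eS.toEquiv, hS7] at hSm
    rw [hS7, Nat.odd_iff] at hodd
    have hT3 : Nat.card (stabilizer ψ.range (0 : Fin 7)) = 3 := by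
      have := Nat.le_of_dvd (by norm_num) hT6
      generalize Nat.card (stabilizer ψ.range (0 : Fin 7)) = k at *
      interval_cases k <;> omega
    have hc168 : Nat.card G = 168 := by rw [hSm, hT3]
    exact ⟨simple_one_sixty_eight hc168 hG, hc168⟩
  · exfalso
    rcases seven ψ hψ hS hψe hψtr with ⟨⟨e7⟩⟩ | ⟨hs7, h168⟩
    · refine h5 ?_
      rw [hSm, Nat.card_congr e7.toEquiv, card_alt 7 2520 (by norm_num) rfl]
      norm_num
    haveI := hs7
    have h1344 : Nat.card φ.range = 1344 := by rw [← hcard, hSm, h168]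
    haveI : Nontrivial φ.range := Finite.one_lt_card_iff_nontrivial.1 (by rw [h1344]; norm_num)
    haveI : IsSimpleGroup φ.range := ⟨fun N hN => by
      haveI := hN
      by_cases hNb : N = ⊥
      · exact Or.inl hNb
      right
      haveI := PermLib.isPretransitive_of_normal_ne_bot (α := Fin 8) hNb
      have hNm : Nat.card N = 8 * Nat.card (stabilizer N a) := by
        rw [PermLib.card_eq_mul_card_stabilizer (G := N) a, Nat.card_fin]
      rcases (inferInstance : (N.subgroupOf S).Normal).eq_bot_or_eq_top with h | h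
      · exfalso
        have hst : stabilizer N a = ⊥ := by
          rw [Subgroup.eq_bot_iff_forall]
          intro t ht
          have ht' : (t : φ.range) ∈ S := ht
          have : (⟨(t : φ.range), ht'⟩ : S) ∈ N.subgroupOf S := t.2
          rw [h, Subgroup.mem_bot] at this
          have h0 : (t : φ.range) = 1 := congrArg Subtype.val this
          exact Subtype.ext h0
        rw [hst, Subgroup.card_bot, mul_one] at hNm
        have := PSolv.le_pCore hN (IsPGroup.of_card (p := 2) (n := 3) (by rw [hNm]; norm_num))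
        rw [hOI, le_bot_iff] at this
        exact hNb this
      · rw [Subgroup.subgroupOf_eq_top] at h
        refine Subgroup.eq_top_of_card_eq _ ?_
        rw [h1344, hNm]
        have h8 : Nat.card (stabilizer N a) = 168 := by
          rw [← h168]
          exact Nat.card_congr
            { toFun := fun t => ⟨(t : N).1, t.2⟩
              invFun := fun s => ⟨⟨s.1, h s.2⟩, s.2⟩
              left_inv := fun t => rfl
              right_inv := fun s => rfl }
        rw [h8]⟩
    obtain ⟨θ, hθ⟩ := exists_alt_eight_action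
    let ι : φ.range →* alternatingGroup (Fin 8) := φ.range.subtype.codRestrict _ (fun x => by
      obtain ⟨g, hg⟩ := x.2
      show (x : Perm (Fin 8)) ∈ _
      rw [← hg]
      exact Perm.mem_alternatingGroup.2 (he g))
    exact no_simple_1344 h1344
      (E := Multiplicative (Fin 4 → ZMod 2))
      (fun e => by
        apply Multiplicative.toAdd.injective
        ext i
        simp [CharTwo.add_self_eq_zero])
      (by rw [Nat.card_congr Multiplicative.toAdd, Nat.card_fun, Nat.card_fin, Nat.card_zmod]; norm_num)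
      (θ.comp ι) (hθ.comp (fun a b h => Subtype.ext (congrArg Subtype.val h :)))

end Cfsg.Agent.TwoAut.SubEight
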