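import Cfsg.Agent.FieldMaps.Additive
import Cfsg.Agent.Suzuki.Field

/-!
# Additive maps respecting the squaring form of a Suzuki 2-group are semilinear
-/

set_option autoImplicit false
set_option linter.all false

namespace Cfsg.Agent.TwoAut.SzSylow

open Cfsg.Agent.FieldMaps Cfsg.Agent.Suzuki

universe u

variable {F : Type u} [Field F] [Fintype F]

/-- A vanishing quadratic combination of automorphisms has alternating coefficients. -/
theorem quad_eq_zero [CharP F 2] (M : (F ≃+* F) → (F ≃+* F) → F)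
    (h : ∀ a : F, ∑ σ, ∑ τ, M σ τ * (σ a * τ a) = 0) :
    (∀ σ, M σ σ = 0) ∧ ∀ σ τ, M σ τ + M τ σ = 0 := by
  classical
  have hpol : ∀ x y : F, ∑ σ, ∑ τ, (M σ τ + M τ σ) * (σ x * τ y) = 0 := by
    intro x y
    have h1 := h (x + y)
    simp only [map_add, add_mul, mul_add, Finset.sum_add_distrib, h x, h y, zero_add, add_zero] at h1
    simp only [add_mul, Finset.sum_add_distrib]
    rw [← h1]
    rw [Finset.sum_comm (f := fun σ τ => M τ σ * (σ x * τ y))]
    rw [add_comm]
    congr 1
    exact Finset.sum_congr rfl fun σ _ => Finset.sum_congr rfl fun τ _ => by ring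
  have hsym : ∀ σ τ, M σ τ + M τ σ = 0 := fun σ τ =>
    congrFun (congrFun (coeff₂_unique hpol) σ) τ
  refine ⟨fun σ => congrFun (sum_aut_eq_zero (c := fun σ => M σ σ) fun y => ?_) σ, hsym⟩
  haveI : Fact (Nat.Prime 2) := ⟨Nat.prime_two⟩
  obtain ⟨x, rfl⟩ := (frobeniusEquiv F 2).surjective y
  rw [← h x, sum_symm_diag _ fun σ τ => by rw [CharTwo.add_eq_zero.1 (hsym σ τ)]; ring]
  refine Finset.sum_congr rfl fun σ _ => ?_
  rw [frobeniusEquiv_apply, frobenius_def, sq, map_mul]

variable {m : ℕ} [hS : SuzukiField F m]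

include hS

/-- The twisting automorphism. -/
noncomputable def Θ : F ≃+* F := RingEquiv.ofBijective (th F m) th_bijective

theorem Θ_apply (x : F) : Θ (F := F) x = th F m x := rfl

theorem Θ_comm (σ : F ≃+* F) (x : F) : σ (th F m x) = th F m (σ x) := by
  rw [th_apply, th_apply, map_pow]

theorem exists_th_ne : ∃ x : F, th F m x ≠ x := by
  obtain ⟨x, h0, h1⟩ := exists_ne_zero_ne_one (F := F) (m := m)
  exact ⟨x, fun h => (th_eq_self h).elim h0 h1⟩

theorem exists_th_four_ne : ∃ x : F, th F m (th F m (th F m (th F m x))) ≠ x := by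
  obtain ⟨g, hg⟩ := IsCyclic.exists_generator (α := Fˣ)
  refine ⟨(g : F), fun h => ?_⟩
  rw [th_th, th_th, ← pow_mul] at h
  have h3 : g ^ 3 = 1 := by
    apply mul_right_cancel (b := g)
    rw [one_mul, ← pow_succ]
    exact Units.ext (by rw [Units.val_pow_eq_pow_val]; exact h)
  have hd := Nat.le_of_dvd (by norm_num) (orderOf_dvd_of_pow_eq_one h3)
  rw [orderOf_eq_card_of_forall_mem_zpowers hg, Nat.card_units, Nat.card_eq_fintype_card,
    hS.card] at hd
  have : 2 ^ 3 ≤ 2 ^ (2 * m + 1) := Nat.pow_le_pow_right (by norm_num) (by have := hS.one_le; omega)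
  omega

/-- Additive maps transforming the form `θ(a)a` additively are semilinear. -/
theorem exists_semilinear (T : F → F) (hT : Function.Bijective T)
    (hadd : ∀ a b, T (a + b) = T a + T b) (U : F → F) (hU : ∀ a b, U (a + b) = U a + U b)
    (hN : ∀ a, U (th F m a * a) = th F m (T a) * T a) :
    ∃ (t : Fˣ) (τ : F ≃+* F), ∀ a, T a = t * τ a := by
  classical
  haveI : Fact (Nat.Prime 2) := ⟨Nat.prime_two⟩
  obtain ⟨c, hc⟩ := exists_coeff 2 (AddMonoidHom.mk' T hadd)
  obtain ⟨d, hd⟩ := exists_coeff 2 (AddMonoidHom.mk' U hU)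
  have hc' : ∀ a, T a = ∑ σ, c σ * σ a := hc
  have hd' : ∀ a, U a = ∑ σ, d σ * σ a := hd
  let Θ' : F ≃+* F := Θ (m := m)
  let e : (F ≃+* F) → F := fun σ => th F m (c (σ.trans Θ'.symm))
  have hTh : ∀ a, th F m (T a) = ∑ σ, e σ * σ a := by
    intro a
    rw [hc', map_sum]
    refine Fintype.sum_equiv ⟨fun σ => σ.trans Θ', fun σ => σ.trans Θ'.symm,
      fun σ => RingEquiv.ext fun x => Θ'.symm_apply_apply _,
      fun σ => RingEquiv.ext fun x => Θ'.apply_symm_apply _⟩ _ _ fun σ => ?_
    simp only [Equiv.coe_fn_mk, e, map_mul]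
    rw [show (σ.trans Θ').trans Θ'.symm = σ from RingEquiv.ext fun x => Θ'.symm_apply_apply _]
    rfl
  obtain ⟨hdiag, hsym⟩ := quad_eq_zero
    (fun σ τ => e σ * c τ + if σ = τ.trans Θ' then d τ else 0) (fun a => by
      have h1 : ∑ σ, ∑ τ, (if σ = τ.trans Θ' then d τ else 0) * (σ a * τ a) = U (th F m a * a) := by
        rw [hd', Finset.sum_comm]
        refine Finset.sum_congr rfl fun τ _ => ?_
        simp only [ite_mul, zero_mul, Finset.sum_ite_eq', Finset.mem_univ, if_true]
        rw [map_mul, Θ_comm]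
        rfl
      simp only [add_mul, Finset.sum_add_distrib]
      rw [h1, hN, hTh, hc', Finset.sum_mul_sum]
      rw [← Finset.sum_add_distrib]
      refine Finset.sum_eq_zero fun σ _ => ?_
      rw [← Finset.sum_add_distrib]
      refine Finset.sum_eq_zero fun τ _ => ?_
      linear_combination (norm := ring_nf) CharTwo.add_self_eq_zero (e σ * c τ * (σ a * τ a)))
  obtain ⟨x1, hx1⟩ := exists_th_ne (F := F) (m := m)
  obtain ⟨x4, hx4⟩ := exists_th_four_ne (F := F) (m := m)
  have hne : ∀ σ : F ≃+* F, σ ≠ σ.trans Θ' := by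
    intro σ h
    obtain ⟨y, rfl⟩ := σ.surjective x1
    exact hx1 (DFunLike.congr_fun h y).symm
  have he : ∀ σ, e (σ.trans Θ') = th F m (c σ) := fun σ => by
    show th F m (c _) = _
    congr 2
    exact RingEquiv.ext fun x => Θ'.symm_apply_apply _
  -- no two neighbours in the support
  have hnb : ∀ α, c α ≠ 0 → c (α.trans Θ') = 0 := by
    intro α hα
    have h := hdiag (α.trans Θ')
    rw [if_neg (hne _), add_zero, he, mul_eq_zero, map_eq_zero] at h
    exact h.resolve_left hα
  have hstep : ∀ α β, c α ≠ 0 → c β ≠ 0 → α ≠ β → β = (α.trans Θ').trans Θ' := by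
    intro α β hα hβ hne'
    by_contra hb
    have h := hsym (α.trans Θ') β
    rw [if_neg (fun h => hne' (RingEquiv.ext fun x => Θ'.injective (DFunLike.congr_fun h x))),
      if_neg hb, he, hnb α hα, mul_zero, add_zero, add_zero, add_zero, mul_eq_zero,
      map_eq_zero] at h
    exact h.elim hα hβ
  obtain ⟨α, hα⟩ : ∃ α, c α ≠ 0 := by
    by_contra hcon
    push_neg at hcon
    have h0 : ∀ a, T a = 0 := fun a => by rw [hc']; simp [hcon]
    exact zero_ne_one (hT.1 ((h0 0).trans (h0 1).symm))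
  have huniq : ∀ β, β ≠ α → c β = 0 := by
    intro β hne'
    by_contra hβ
    have h1 := hstep α β hα hβ hne'.symm
    have h2 := hstep β α hβ hα hne'
    rw [h1] at h2
    obtain ⟨y, rfl⟩ := α.surjective x4
    exact hx4 (DFunLike.congr_fun h2 y).symm
  refine ⟨Units.mk0 _ hα, α, fun a => ?_⟩
  rw [hc', Finset.sum_eq_single α (fun β _ hβ => by rw [huniq β hβ, zero_mul])
    (fun h => absurd (Finset.mem_univ _) h)]
  rfl

end Cfsg.Agent.TwoAut.SzSylow
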